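import Cfsg.Agent.H530.OZ.RowF

/-!
# S4842: `POmega⁺_{2n}`, `n` even, `n ≥ 6`

* `isoP'` : a prime dividing `q ^ k - 1`, `k ≥ 5` odd, and no `q ^ i - 1`, `i < k`, is isolated in dimension `2k` and `2k + 2`;
* `end_plus_even` : the arithmetic;
* `row_plus_even_of` : the row from the two congruences of the primes of order `2(n-2)` (constancy on `z Ω₄⁻`) and `n`.
-/

set_option autoImplicit false

namespace Cfsg.Agent.H128.OZ

open Module QuadraticMap Cfsg Subgroup
open Cfsg.Agent.LieClassical.OrthCore Cfsg.Agent.LieClassical.OrthTrans Cfsg.Agent.H890.SpParity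
open Cfsg.Agent.LieClassical.OrthFinite Cfsg.Agent.LieClassical.OrthForms
open Cfsg.Agent.H182.Sign Cfsg.Agent.H182.Orth Cfsg.Agent.H530.CJ Cfsg.Agent.H93.CJ Cfsg.Agent.H93.PReg
open Cfsg.Agent.H730.OZ Cfsg.Agent.H530.OZ Cfsg.Agent.Nodes.RGDChev

universe u

section num

theorem num1' {k : ℕ} (hk : 5 ≤ k) : 2 * k + 4 < 2 ^ k := by
  induction k, hk using Nat.le_induction with
  | base => norm_num
  | succ k hk ih => rw [pow_succ]; omega

theorem num3' {k : ℕ} (hk : 5 ≤ k) : 8 * k + 13 < 3 ^ k := by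
  induction k, hk using Nat.le_induction with
  | base => norm_num
  | succ k hk ih => rw [pow_succ]; omega

theorem numP' {q k j r : ℕ} (hq : 2 ≤ q) (hk : 5 ≤ k) (hj : j = 0 ∨ j = 1) (hr : r.Prime)
    (hle : r ≤ 2 * (k + j) + 1) (h4 : q ^ k - 1 ∣ 4 * r) : False := by
  have hr0 : 0 < r := hr.pos
  have hq2 : 2 ^ k ≤ q ^ k := Nat.pow_le_pow_left hq k
  have h1 := num1' hk
  rcases Nat.even_or_odd q with he | ho
  · have h5 : q ^ k - 1 ∣ r := by
      refine Nat.Coprime.dvd_of_dvd_mul_left (m := 4) ?_ h4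
      refine Nat.Coprime.pow_right (m := 2) 2 ?_
      rw [Nat.coprime_two_right]
      exact Nat.Even.sub_odd (by omega) (he.pow_of_ne_zero (by omega)) odd_one
    have h6 := Nat.le_of_dvd hr0 h5
    omega
  · have hq3 : 3 ≤ q := by
      rcases ho with ⟨m, hm⟩
      omega
    have h7 : 3 ^ k ≤ q ^ k := Nat.pow_le_pow_left hq3 k
    have := num3' hk
    have := Nat.le_of_dvd (by omega) h4
    omega

end num

/-- **Primes dividing `q ^ k - 1`, `k` odd, dimension `2k` or `2k + 2`.** -/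
theorem isoP' {F : Type} [Field F] [Fintype F] {p : ℕ} [Fact p.Prime] [CharP F p] {k : ℕ} {P : Type} [AddCommGroup P]
    [Module F P] [Finite P] {Q' : QuadraticForm F P} {j : ℕ} {δ : ℤ} (hQ' : Sg Q' j δ) (hj : j = 0 ∨ j = 1)
    (hk : 5 ≤ k) (hodd : Odd k) {ι : Type} [Fintype ι] [DecidableEq ι] {R : QuadraticForm F (ι → F)}
    (hR : Sg R (k + j) (1 * δ)) {S : Type*} [Group S] (i : POmega F ⇑R ≃* S) {r : ℕ} (hr : r.Prime)
    (hr1 : r ∣ Fintype.card F ^ k - 1) (hr2 : ∀ i : ℕ, 0 < i → i < k → ¬ r ∣ Fintype.card F ^ i - 1) :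
    IsoAt p r S := by
  obtain ⟨K, _, _, b, hKf, y, hK, hy⟩ := Singer.exists_ext F k (by omega)
  have hrk : Module.finrank F K = k := by rw [Module.finrank_eq_card_basis b, Fintype.card_fin]
  have hQ := sg_tq F K hrk
  obtain ⟨hG, π, hπ, hker⟩ := exists_pi' (hQ.prod hQ') (by omega) hR i
  have hcF : Nat.card F = Fintype.card F := Nat.card_eq_fintype_card
  have hF : 2 ≤ Fintype.card F := Fintype.one_lt_card
  have hFk : 2 ^ k ≤ Fintype.card F ^ k := Nat.pow_le_pow_left hF k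
  have h2k := num1' hk
  obtain ⟨s, hs⟩ := hr1
  have hs0 : s ≠ 0 := by
    rintro rfl
    omega
  set lam : Kˣ := y ^ s with hlam
  have hlamo : orderOf (lam : K) = r := by
    rw [orderOf_units, hlam, orderOf_pow_of_dvd hs0 (by rw [hy, hs]; exact Dvd.intro_left r rfl), hy, hs,
      Nat.mul_div_cancel _ (Nat.pos_of_ne_zero hs0)]
  have hr2' : r ≠ 2 := by
    rintro rfl
    rcases Nat.even_or_odd (Fintype.card F) with h | h
    · have h1 : Odd (Fintype.card F ^ k - 1) := Nat.Even.sub_odd (by omega) (h.pow_of_ne_zero (by omega)) odd_one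
      rw [hs] at h1
      exact (Nat.not_odd_iff_even.2 (even_two_mul s)) h1
    · have h1 := hr2 1 one_pos (by omega)
      rw [pow_one] at h1
      exact h1 (Nat.Odd.sub_odd h odd_one).two_dvd
  have hT := torU_plus (F := F) (r := r) (lam := lam) (by omega) (tor_of_odd hr hr2' lam.ne_zero hlamo (by rwa [hrk]) (by
    intro i hi hi2
    rw [hcF]
    rw [hrk] at hi2
    exact hr2 i hi hi2)) hlamo
  have hr2'' : Odd r := hr.odd_of_ne_two hr2'
  have hPd : finrank F P = 2 * j := hQ'.dim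
  refine iso_orth (p := p) hr hT (hQ.prod hQ').nondeg (by rw [hPd]; omega) ?_ ?_ ?_
    (mem_of_odd hG hT.memO hr2'' hT.pow_eq) π hπ hker ?_
  · rw [hcF]
    intro h1
    have h3 : Fintype.card F ^ k = r * s + 1 := by omega
    have h2 : r ∣ 1 := (Nat.dvd_add_right (Dvd.intro s rfl)).1 (h3 ▸ Dvd.dvd.pow h1 (by omega))
    exact hr.one_lt.ne' (Nat.dvd_one.1 h2)
  · rw [hcF]
    have h1 := hr2 1 one_pos (by omega)
    rwa [pow_one] at h1
  · rw [hcF]
    exact hr2 2 two_pos (by omega)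
  · rintro ⟨h1, h2⟩
    have h3 := h1 ⟨zz P (dw y ^ 2), sq_mem hG (dw_mem_O y)⟩ (by
      apply Subtype.ext
      show zz P (dw lam) * zz P (dw y ^ 2) = zz P (dw y ^ 2) * zz P (dw lam)
      refine LinearEquiv.ext fun v => Prod.ext ?_ rfl
      show (dw lam : (K × K) ≃ₗ[F] (K × K)) ((dw y ^ 2 : (K × K) ≃ₗ[F] (K × K)) v.1) =
        (dw y ^ 2 : (K × K) ≃ₗ[F] (K × K)) ((dw lam : (K × K) ≃ₗ[F] (K × K)) v.1)
      rw [dw_pow, dw_apply, dw_apply, dw_apply, dw_apply]
      refine Prod.ext ?_ ?_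
      · show (lam : K) * (((y ^ 2 : Kˣ) : K) * v.1.1) = ((y ^ 2 : Kˣ) : K) * ((lam : K) * v.1.1)
        ring
      · show ((lam⁻¹ : Kˣ) : K) * ((((y ^ 2)⁻¹ : Kˣ) : K) * v.1.2) = (((y ^ 2)⁻¹ : Kˣ) : K) * (((lam⁻¹ : Kˣ) : K) * v.1.2)
        ring)
    have hnt' : Nontrivial ((K × K) × P) := inferInstance
    obtain ⟨a, ha2, ha, -⟩ := scal hker (hQ.prod hQ').nondeg hnt' _ h3
    have h4 : ((y ^ (2 * r) : Kˣ) : K) = a • (1 : K) := by
      have h5 := ha (1, 0)
      rw [← pow_mul, dw_pow, dw_apply] at h5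
      have h6 := congrArg Prod.fst h5
      rw [mul_one] at h6
      exact h6
    refine numP' hF hk hj hr ?_ ?_
    · rw [finrank_prod, hPd, hQ.dim] at h2
      omega
    · rw [← hy]
      apply orderOf_dvd_of_pow_eq_one
      apply Units.ext
      rw [show 4 * r = 2 * r * 2 by ring, pow_mul, Units.val_pow_eq_pow_val, h4, smul_pow, one_pow, pow_two, ha2,
        one_smul, Units.val_one]

/-- `e = 1`, shifted -/
theorem pos_shift {p n r : ℕ} (h : Prim p n r) (hp : 1 ≤ p) {m k : ℕ} (hk : k ≤ m)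
    (hm : (r : ℤ) ∣ 1 * (p : ℤ) ^ m - (p : ℤ) ^ k) : n ∣ m - k := by
  rw [← h.iff]
  obtain ⟨s, rfl⟩ := Nat.exists_eq_add_of_le hk
  rw [Nat.add_sub_cancel_left]
  have h1 : 1 ≤ p ^ s := Nat.one_le_pow _ _ hp
  have h2 : 1 * (p : ℤ) ^ (k + s) - (p : ℤ) ^ k = (p : ℤ) ^ k * ((p ^ s - 1 : ℕ) : ℤ) := by
    rw [Nat.cast_sub h1]
    push_cast
    ring
  rw [h2] at hm
  have h3 : r ∣ p ^ k * (p ^ s - 1) := by exact_mod_cast hm
  rcases h.prime.dvd_mul.1 h3 with h4 | h4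
  · exact absurd h4 (h.not_dvd_pow k)
  · exact h4

/-- `POmega⁺`, `n ≥ 6` even: no exponents -/
theorem end_plus_even {f n m r₁ r₂ r₃ r₄ p : ℕ} (hp : 1 ≤ p) (hf : 0 < f) (hn : 6 ≤ n)
    (h1 : Prim p (2 * (n - 1) * f) r₁) (h2 : Prim p ((n - 1) * f) r₂) (h3 : Prim p (2 * (n - 2) * f) r₃)
    (h4 : Prim p (n * f) r₄) (e : ℤ) (he : e = 1 ∨ e = -1) (hm : 0 < m) (hm' : m < 2 * (f * (n * (n - 1))))
    (c1 : (r₁ : ℤ) ∣ e * (p : ℤ) ^ m - (p : ℤ) ^ 0) (c2 : (r₂ : ℤ) ∣ e * (p : ℤ) ^ m - (p : ℤ) ^ 0)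
    (c3 : (r₃ : ℤ) ∣ e * (p : ℤ) ^ m - (p : ℤ) ^ (4 * f)) (c4 : (r₄ : ℤ) ∣ e * (p : ℤ) ^ m - (p : ℤ) ^ 0) : False := by
  obtain ⟨k, rfl⟩ : ∃ k, n = k + 2 := ⟨n - 2, by omega⟩
  rw [show k + 2 - 1 = k + 1 by omega, show k + 2 - 2 = k by omega] at *
  rcases he with rfl | rfl
  · have d1 := h1.pos hp c1
    obtain ⟨y, rfl⟩ := d1
    have hy0 : 0 < y := Nat.pos_of_ne_zero (by rintro rfl; omega)
    have hylt : y < k + 2 := by
      by_contra hcon
      push Not at hcon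
      have h5 : 2 * (k + 1) * f * (k + 2) ≤ 2 * (k + 1) * f * y := Nat.mul_le_mul_left _ hcon
      have h6 : 2 * (f * ((k + 2) * (k + 1))) = 2 * (k + 1) * f * (k + 2) := by ring
      omega
    have hle : 4 * f ≤ 2 * (k + 1) * f * y := by
      have h5 : 2 * (k + 1) * f * 1 ≤ 2 * (k + 1) * f * y := Nat.mul_le_mul_left _ hy0
      have h6 : 4 * f ≤ 2 * (k + 1) * f := Nat.mul_le_mul_right _ (by omega)
      omega
    have d3 := pos_shift h3 hp hle c3
    -- `(k + 1) y ≡ 2 (mod k)`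
    have d3' : k ∣ (k + 1) * y - 2 := by
      apply Nat.dvd_of_mul_dvd_mul_left (k := 2 * f) (by omega)
      have h5 : 2 * f * ((k + 1) * y - 2) = 2 * (k + 1) * f * y - 4 * f := by
        rw [Nat.mul_sub]
        congr 1
        · ring
        · ring
      rw [h5, show 2 * f * k = 2 * k * f by ring]
      exact d3
    have hy2 : y = 2 := by
      obtain ⟨z, hz⟩ := d3'
      have h5 : 2 ≤ (k + 1) * y := by nlinarith
      have h6 : (k + 1) * y = k * z + 2 := by omega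
      -- `y - 2 = k (z - y)`
      by_contra hne
      rcases Nat.lt_or_ge y 2 with hlt | hge
      · have hy1 : y = 1 := by omega
        subst hy1
        have h7 : k * z + 1 = k := by omega
        rcases Nat.eq_zero_or_pos z with rfl | hz0
        · omega
        · have : k * 1 ≤ k * z := Nat.mul_le_mul_left _ hz0
          omega
      · obtain ⟨w, rfl⟩ := Nat.exists_eq_add_of_le hge
        have h7 : k * (2 + w) + w = k * z := by
          have : (k + 1) * (2 + w) = k * (2 + w) + (2 + w) := by ring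
          omega
        have h8 : k ∣ w := (Nat.dvd_add_right (Dvd.intro _ rfl)).1 ⟨z, h7⟩
        have h9 := Nat.le_of_dvd (by omega) h8
        omega
    subst hy2
    have d4 := h4.pos hp c4
    have h5 : (k + 2) ∣ 4 * (k + 1) := by
      apply Nat.dvd_of_mul_dvd_mul_left (k := f) hf
      rw [show f * (k + 2) = (k + 2) * f by ring, show f * (4 * (k + 1)) = 2 * (k + 1) * f * 2 by ring]
      exact d4
    have h6 : Nat.Coprime (k + 2) (k + 1) := by
      rw [show k + 2 = (k + 1) + 1 by ring]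
      simp
    have h7 : (k + 2) ∣ 4 := h6.dvd_of_dvd_mul_right h5
    have h8 := Nat.le_of_dvd (by norm_num) h7
    omega
  · have hk1 : 5 ≤ (k + 1) * f := (by omega : 5 ≤ k + 1).trans (Nat.le_mul_of_pos_right _ hf)
    have hn1 : 2 ≤ 2 * (k + 1) * f := by rw [mul_assoc]; omega
    obtain ⟨d1, -⟩ := h1.neg hn1 hp c1
    obtain ⟨-, d2⟩ := h2.neg (by omega) hp c2
    apply d2
    apply Nat.dvd_of_mul_dvd_mul_left (k := 2) (by omega)
    rwa [show 2 * ((k + 1) * f) = 2 * (k + 1) * f by ring]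

/-- **The row `POmega⁺_{2n}`, `n ≥ 6` even**, from the congruences for the primitive primes of order `2(n-2)` and `n` -/
theorem row_plus_even_of {S : Type u} [Group S] [Finite S] (hs : IsSimpleGroup S) {F : Type} [Field F] [Fintype F]
    {n : ℕ} (hn : 6 ≤ n) (heven : Even n) (h62 : ¬ (n = 6 ∧ Fintype.card F = 2)) (e : S ≃* POmega F (quadFormPlus n F))
    (hKC : ∀ (p f r : ℕ), p.Prime → Fintype.card F = p ^ f → Prim p (2 * (n - 2) * f) r → Cong p r (4 * f) S)
    (hLOC : ∀ (p f r : ℕ), p.Prime → Fintype.card F = p ^ f → Prim p (n * f) r → Cong p r 0 S) : Cfsg.Agent.H730.OZ.Row S := by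
  obtain ⟨p, hch⟩ := CharP.exists F
  obtain ⟨⟨f, hf⟩, hp, hcard⟩ := FiniteField.card F p
  simp only [PNat.mk_coe] at hcard
  have hpf : Fact p.Prime := ⟨hp⟩
  have hKS : Kaw p S := by
    refine Cfsg.Agent.H279.OZ.kaw_of_hasRGD hp ?_
    obtain ⟨k, rfl⟩ : ∃ k, n = k + 3 := ⟨n - 3, by omega⟩
    exact (Cfsg.Agent.Nodes.WittInst.hasRGD_PO_plus k).of_equiv e.symm
  have hS0 := S0293.result hcard n (by omega)
  have hcS : Nat.card (POmega F (quadFormPlus n F)) = Nat.card S := (Nat.card_congr e.toEquiv).symm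
  rw [hcS] at hS0
  have hfn : 0 < f * n := Nat.mul_pos hf (by omega)
  obtain ⟨ho1, ho2⟩ := order_facts hp hf (by omega : 4 ≤ n) (Nat.card_pos (α := S)).ne' (d := Nat.gcd 4 ((p ^ f) ^ n - 1))
    (w := (p ^ f) ^ n - 1) (fun h => not_dvd_pow_sub hp hfn (by rw [pow_mul]; exact h.trans (Nat.gcd_dvd_right _ _)))
    (fun h => not_dvd_pow_sub hp hfn (by rw [pow_mul]; exact h)) (by
      have h4 : (p ^ f) ^ (2 * n) - 1 = ((p ^ f) ^ n + 1) * ((p ^ f) ^ n - 1) := by
        rw [mul_comm 2, pow_mul]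
        have := Nat.sq_sub_sq ((p ^ f) ^ n) 1
        simpa using this
      rw [h4]
      exact Dvd.intro_left _ rfl) hS0
  have i : POmega F ⇑(plusForm n F) ≃* S := by
    rw [coe_plusForm]
    exact e.symm
  have hR : Sg (plusForm n F) n 1 := sg_plusForm n
  have hn1f : 5 ≤ (n - 1) * f := (by omega : 5 ≤ n - 1).trans (Nat.le_mul_of_pos_right _ hf)
  have hn2f : 4 ≤ (n - 2) * f := (by omega : 4 ≤ n - 2).trans (Nat.le_mul_of_pos_right _ hf)
  have hnf : 6 ≤ n * f := hn.trans (Nat.le_mul_of_pos_right _ hf)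
  have hoddn : Odd (n - 1) := Nat.Even.sub_odd (by omega) heven odd_one
  -- the prime of order `n - 1`
  obtain ⟨r₂, hr₂⟩ := exists_prim (p := p) (n := (n - 1) * f) hp.two_le (by omega) (by
    rintro ⟨-, h6⟩
    have h7 : n - 1 ∣ 6 := ⟨f, h6.symm⟩
    have h8 : n - 1 ≤ 6 := Nat.le_of_dvd (by norm_num) h7
    have h9 : n - 1 = 5 ∨ n - 1 = 6 := by omega
    rcases h9 with h9 | h9
    · rw [h9] at h7; exact absurd h7 (by norm_num)
    · rw [h9] at hoddn; exact absurd hoddn (by decide))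
  have hc₂ : Cong p r₂ 0 S := by
    refine IsoAt.cong hp hr₂.prime hr₂.ne (isoP' (p := p) (k := n - 1) (sg_hypForm (F := F)) (Or.inr rfl) (by omega) hoddn ?_ i
      hr₂.prime ?_ ?_)
    · rw [show n - 1 + 1 = n by omega]
      simpa using hR
    · rw [hcard, ← pow_mul, hr₂.iff]
      exact ⟨1, by ring⟩
    · intro j hj hjn
      rw [hcard, ← pow_mul, hr₂.iff]
      intro h1
      have h3 := Nat.le_of_dvd (Nat.mul_pos hf hj) h1
      have h4 : f * j < f * (n - 1) := Nat.mul_lt_mul_of_pos_left hjn hf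
      have h5 : (n - 1) * f = f * (n - 1) := mul_comm _ _
      omega
  -- the prime of order `2 (n - 1)`
  obtain ⟨r₁, hr₁⟩ := exists_prim (p := p) (n := 2 * (n - 1) * f) hp.two_le (by rw [mul_assoc]; omega) (by
    rw [mul_assoc]; omega)
  have hc₁ : Cong p r₁ 0 S := by
    obtain ⟨h1, h2⟩ := hr₁.conds hf
    obtain ⟨L, _, _, _, Q', u, hQ', -, -⟩ := exists_torusM F (k := 1) one_ne_zero
    refine IsoAt.cong hp hr₁.prime hr₁.ne (isoM (p := p) (k := n - 1) hQ' (Or.inr rfl) (by omega)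
      (fun h => absurd h one_ne_zero) ?_ i hr₁.prime (by rw [hcard]; exact h1) (by rw [hcard]; exact h2))
    rw [show n - 1 + 1 = n by omega]
    simpa using hR
  -- the primes of order `2 (n - 2)` and `n`
  obtain ⟨r₃, hr₃⟩ := exists_prim (p := p) (n := 2 * (n - 2) * f) hp.two_le (by rw [mul_assoc]; omega) (by
    rw [mul_assoc]; omega)
  obtain ⟨r₄, hr₄⟩ := exists_prim (p := p) (n := n * f) hp.two_le (by omega) (by
    rintro ⟨rfl, h6⟩
    have h7 : f = 1 := by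
      have h8 : 6 * f ≤ n * f := Nat.mul_le_mul_right _ hn
      omega
    subst h7
    apply h62
    exact ⟨by omega, by rw [hcard]; norm_num⟩)
  refine Cfsg.Agent.H730.OZ.Row.of_none fun χ hχ => ?_
  refine none_of_cong hs hp ho1 (Nat.mul_pos hf (Nat.mul_pos (by omega) (by omega))).ne' hKS ho2 ?_ hχ
  intro m ε hε hm hm' hcong
  exact end_plus_even hp.one_le hf hn hr₁ hr₂ hr₃ hr₄ ε hε hm hm' (hcong r₁ 0 hc₁) (hcong r₂ 0 hc₂)
    (hcong r₃ _ (hKC p f r₃ hp hcard hr₃)) (hcong r₄ 0 (hLOC p f r₄ hp hcard hr₄))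

end Cfsg.Agent.H128.OZ
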