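import Cfsg.Agent.H530.OZ.Geo
import Cfsg.Agent.H93.CJ.OOdd
import Cfsg.Agent.H128.OZ.PlusEven

/-!
# S4842: isolated primes of `Ω_{2n+1} (q)`, `q` odd (helper128)

* `iso_orth1` : helper530's `iso_orth` with a one-dimensional complement;
* `isoMO` : a prime dividing `q ^ n + 1` and no `q ^ i - 1`, `i < 2n`;
* `isoPO` : a prime dividing `q ^ n - 1`, `n` odd, and no `q ^ i - 1`, `i < n`.
-/

set_option autoImplicit false

namespace Cfsg.Agent.H128.OZ

open Module QuadraticMap Cfsg Subgroup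
open Cfsg.Agent.LieClassical.OrthCore Cfsg.Agent.LieClassical.OrthTrans Cfsg.Agent.H890.SpParity
open Cfsg.Agent.LieClassical.OrthFinite Cfsg.Agent.LieClassical.OrthForms
open Cfsg.Agent.H182.Sign Cfsg.Agent.H182.Orth Cfsg.Agent.H530.CJ Cfsg.Agent.H93.CJ Cfsg.Agent.H93.PReg
open Cfsg.Agent.H730.OZ Cfsg.Agent.H530.OZ

section one

theorem eq_one_of_one {F P : Type*} [Field F] [AddCommGroup P] [Module F P] {p : ℕ} [Fact p.Prime] [CharP F p]
    (hP : finrank F P = 1) {s : P ≃ₗ[F] P} (hs : s ^ p = 1) : s = 1 := by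
  obtain ⟨w, hw0, hw⟩ := finrank_eq_one_iff'.1 hP
  obtain ⟨c, hc⟩ := hw (s w)
  have hsv : ∀ v, s v = c • v := by
    intro v
    obtain ⟨a, rfl⟩ := hw v
    rw [map_smul, ← hc, smul_comm]
  have hpow : ∀ (k : ℕ) (v : P), (s ^ k) v = c ^ k • v := by
    intro k
    induction k with
    | zero => intro v; rw [pow_zero, pow_zero, one_smul]; rfl
    | succ k ih => intro v; rw [pow_succ', LinearEquiv.mul_apply, ih, hsv, smul_smul, pow_succ']
  have h1 : c ^ p = 1 := by
    have h2 := hpow p w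
    rw [hs] at h2
    have h3 : (c ^ p - 1) • w = 0 := by
      rw [sub_smul, one_smul, ← h2]
      exact sub_self w
    exact sub_eq_zero.1 ((smul_eq_zero.1 h3).resolve_right hw0)
  have h2 : c = 1 := by
    have h3 : (c - 1) ^ p = 0 := by rw [sub_pow_char, one_pow, h1, sub_self]
    exact sub_eq_zero.1 (pow_eq_zero_iff (Fact.out : p.Prime).ne_zero |>.1 h3)
  ext v
  rw [hsv, h2, one_smul]
  rfl

end one

section main

variable {F : Type*} [Field F] [Finite F] {U P L : Type*} [AddCommGroup U] [Module F U] [Finite U] [AddCommGroup P]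
  [Module F P] [Finite P] [Field L] [Algebra F L] {Q : QuadraticForm F U} {Q' : QuadraticForm F P}
  {r : ℕ} {z : U ≃ₗ[F] U} {j : L →ₗ[F] U} {lam : L}

/-- **Isolated primes in orthogonal groups, odd dimension.** -/
theorem iso_orth1 {p : ℕ} [Fact p.Prime] [CharP F p] (hr : r.Prime) (hT : TorU Q r z j lam)
    (hnd : Nondeg (prodForm Q Q')) (hP : finrank F P = 1)
    (hq : ¬ r ∣ Nat.card F) (hq1 : ¬ r ∣ Nat.card F - 1) (hq2 : ¬ r ∣ Nat.card F ^ 2 - 1)
    (hzE : zz P z ∈ E (prodForm Q Q')) {S : Type*} [Group S] (π : E (prodForm Q Q') →* S)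
    (hπ : Function.Surjective π)
    (hker : ∀ k : E (prodForm Q Q'), k ∈ π.ker ↔ ∃ a : F, ∀ v, (k : (U × P) ≃ₗ[F] (U × P)) v = a • v)
    (hnot : ¬ ((∀ x : E (prodForm Q Q'), Commute (⟨zz P z, hzE⟩ : E (prodForm Q Q')) x → (π x) ^ r = 1) ∧
      r ≤ finrank F (U × P) + 1)) : IsoAt p r S := by
  classical
  have hfr : Fact r.Prime := ⟨hr⟩
  have hfdU : FiniteDimensional F U := Module.Finite.of_finite
  have hfdP : FiniteDimensional F P := Module.Finite.of_finite
  have hfin : Finite (E (prodForm Q Q')) := by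
    have : Finite ((U × P) ≃ₗ[F] (U × P)) :=
      Finite.of_injective (fun g : (U × P) ≃ₗ[F] (U × P) => (g : U × P → U × P)) DFunLike.coe_injective
    infer_instance
  have hchL : CharP L p := charP_of_injective_algebraMap (algebraMap F L).injective p
  have hr2 : r ≠ 2 := by
    rintro rfl
    rcases Nat.even_or_odd (Nat.card F) with h | h
    · exact hq h.two_dvd
    · exact hq1 ((Nat.Odd.sub_odd h odd_one).two_dvd)
  set z' : E (prodForm Q Q') := ⟨zz P z, hzE⟩ with hz'
  have hfix := hT.fix_eq hr.one_lt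
  -- the order of `z'`
  have hU1 : ∃ v : U, v ≠ 0 := ⟨j 1, fun h => one_ne_zero (hT.inj (h.trans (map_zero j).symm))⟩
  have hz'r : z' ^ r = 1 := by
    apply Subtype.ext
    show zz P z ^ r = 1
    rw [zz_pow, hT.pow_eq]
    rfl
  have hz'1 : z' ≠ 1 := by
    intro h
    obtain ⟨v, hv⟩ := hU1
    apply hv
    apply hfix
    have h1 : zz P z = 1 := congrArg Subtype.val h
    exact congrArg Prod.fst (LinearEquiv.congr_fun h1 (v, 0))
  have hz'o : orderOf z' = r := orderOf_eq_prime hz'r hz'1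
  have hmem : ∀ {x : E (prodForm Q Q')}, x ∈ Subgroup.centralizer ({z'} : Set (E (prodForm Q Q'))) ↔ Commute z' x := by
    intro x
    rw [Subgroup.mem_centralizer_singleton_iff]
    exact ⟨fun h => h.symm, fun h => h.symm⟩
  -- the blocks
  have hblock : ∀ x : E (prodForm Q Q'), Commute z' x → ∃ (t : U ≃ₗ[F] U) (s : P ≃ₗ[F] P),
      (x : (U × P) ≃ₗ[F] (U × P)) = t.prodCongr s ∧ t ∈ O Q ∧ Commute t z := by
    intro x hx
    have h1 : Commute (x : (U × P) ≃ₗ[F] (U × P)) (z.prodCongr (LinearEquiv.refl F P)) :=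
      (congrArg Subtype.val hx.eq).symm
    obtain ⟨t, s, hts⟩ := block hfix h1
    refine ⟨t, s, hts, ?_, ?_⟩
    · intro v
      have h2 := E_le_O x.2 (v, 0)
      rw [hts, prodForm_apply, prodForm_apply] at h2
      change Q (t v) + Q' (s 0) = Q v + Q' 0 at h2
      rw [map_zero, QuadraticMap.map_zero, add_zero, add_zero] at h2
      exact h2
    · ext v
      have h2 := LinearEquiv.congr_fun h1.eq (v, 0)
      rw [hts] at h2
      exact congrArg Prod.fst h2
  choose! tt ss hts htO htz using hblock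
  -- powers
  have hpw : ∀ (x : E (prodForm Q Q')), Commute z' x → ∀ k : ℕ, x ^ k = 1 → tt x ^ k = 1 ∧ ss x ^ k = 1 := by
    intro x hx k hk
    have h1 : (x : (U × P) ≃ₗ[F] (U × P)) ^ k = 1 := congrArg Subtype.val hk
    have h2 : ∀ k : ℕ, (x : (U × P) ≃ₗ[F] (U × P)) ^ k = (tt x ^ k).prodCongr (ss x ^ k) := by
      intro k
      induction k with
      | zero => rfl
      | succ k ih =>
        rw [pow_succ, ih, hts x hx]
        rfl
    rw [h2] at h1
    constructor
    · ext v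
      exact congrArg Prod.fst (LinearEquiv.congr_fun h1 (v, 0))
    · ext v
      exact congrArg Prod.snd (LinearEquiv.congr_fun h1 (0, v))
  have hex : ∀ x : E (prodForm Q Q'), Commute z' x → ∃ a : L, (∀ l, tt x (j l) = j (a * l)) ∧ (a = 1 → tt x = 1) ∧
      (a ≠ 1 → ∀ v, tt x v = v → v = 0) := fun x hx => hT.cen _ (htO x hx) (htz x hx)
  choose! aa haa haa1 haa2 using hex
  have haa0 : ∀ x : E (prodForm Q Q'), Commute z' x → aa x ≠ 0 := by
    intro x hx h0
    have h4 := haa x hx 1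
    rw [h0, zero_mul, map_zero, LinearEquiv.map_eq_zero_iff] at h4
    exact one_ne_zero (hT.inj (h4.trans (map_zero j).symm))
  have hmul : ∀ x y : E (prodForm Q Q'), Commute z' x → Commute z' y → tt (x * y) = tt x * tt y := by
    intro x y hx hy
    ext v
    have h1 := hts (x * y) (hx.mul_right hy)
    have h2 : ((x * y : E (prodForm Q Q')) : (U × P) ≃ₗ[F] (U × P)) = (x : (U × P) ≃ₗ[F] (U × P)) * y := rfl
    rw [h2, hts x hx, hts y hy] at h1
    exact (congrArg Prod.fst (LinearEquiv.congr_fun h1 (v, 0))).symm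
  have hamul : ∀ x y : E (prodForm Q Q'), Commute z' x → Commute z' y → aa (x * y) = aa x * aa y := by
    intro x y hx hy
    have h1 := haa (x * y) (hx.mul_right hy) 1
    rw [hmul x y hx hy, LinearEquiv.mul_apply, haa y hy, haa x hx] at h1
    have h2 := hT.inj h1
    rw [mul_one, mul_one] at h2
    exact h2.symm
  let τ : Subgroup.centralizer ({z'} : Set (E (prodForm Q Q'))) →* Lˣ :=
    MonoidHom.mk' (fun x => Units.mk0 (aa x) (haa0 x (hmem.1 x.2))) (fun x y => Units.ext (by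
      show aa (x * y : E (prodForm Q Q')) = aa x * aa y
      exact hamul _ _ (hmem.1 x.2) (hmem.1 y.2)))
  have hss : ∀ x : E (prodForm Q Q'), Commute z' x → (∃ i : ℕ, x ^ (r ^ i) = 1) → ss x = 1 := by
    rintro x hx ⟨i, hi⟩
    exact eq_one_of_order (F := F) hr (by omega) hq hq1 hq2 ⟨i, (hpw x hx _ hi).2⟩
  have hone : ∀ x : E (prodForm Q Q'), Commute z' x → tt x = 1 → ss x = 1 → x = 1 := by
    intro x hx h1 h2
    apply Subtype.ext
    rw [hts x hx, h1, h2]
    rfl
  -- the kernel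
  have hkc : ∀ k ∈ π.ker, ∀ h : E (prodForm Q Q'), k * h = h * k := by
    intro k hk h
    obtain ⟨a, ha⟩ := (hker k).1 hk
    apply Subtype.ext
    ext v
    · show ((k : (U × P) ≃ₗ[F] (U × P)) ((h : (U × P) ≃ₗ[F] (U × P)) v)).1 = _
      rw [ha]
      show _ = ((h : (U × P) ≃ₗ[F] (U × P)) ((k : (U × P) ≃ₗ[F] (U × P)) v)).1
      rw [ha, map_smul]
    · show ((k : (U × P) ≃ₗ[F] (U × P)) ((h : (U × P) ≃ₗ[F] (U × P)) v)).2 = _
      rw [ha]
      show _ = ((h : (U × P) ≃ₗ[F] (U × P)) ((k : (U × P) ≃ₗ[F] (U × P)) v)).2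
      rw [ha, map_smul]
  have hk2 : ∀ k ∈ π.ker, (k ^ 2 = 1) ∧ (p = 2 → k = 1) := by
    intro k hk
    obtain ⟨a, ha⟩ := (hker k).1 hk
    -- a vector with nonzero value
    obtain ⟨w, hw⟩ : ∃ w : U × P, prodForm Q Q' w ≠ 0 := by
      by_contra hcon
      push Not at hcon
      obtain ⟨v, hv⟩ := hU1
      apply hv
      have h1 : ((v, 0) : U × P) = 0 := hnd _ fun y => by
        rw [QuadraticMap.polar, hcon, hcon, hcon, sub_zero, sub_zero]
      exact congrArg Prod.fst h1
    have h1 := E_le_O k.2 w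
    rw [ha, QuadraticMap.map_smul, smul_eq_mul] at h1
    have h2 : a * a = 1 := by
      apply mul_right_cancel₀ hw
      rw [h1, one_mul]
    constructor
    · apply Subtype.ext
      show (k : (U × P) ≃ₗ[F] (U × P)) ^ 2 = 1
      ext v
      · rw [pow_two, LinearEquiv.mul_apply, ha, ha, smul_smul, h2, one_smul]
        rfl
      · rw [pow_two, LinearEquiv.mul_apply, ha, ha, smul_smul, h2, one_smul]
        rfl
    · rintro rfl
      have h3 : a = 1 := by
        have h4 : (a - 1) ^ 2 = 0 := by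
          rw [sub_pow_char, one_pow, pow_two, h2, sub_self]
        exact sub_eq_zero.1 (pow_eq_zero_iff two_ne_zero |>.1 h4)
      apply Subtype.ext
      ext v
      · rw [ha, h3, one_smul]
        rfl
      · rw [ha, h3, one_smul]
        rfl
  set c : ℕ := if p = 2 then 1 else 2 with hcdef
  have hcc : ∀ k ∈ π.ker, k ^ c = 1 := by
    intro k hk
    rw [hcdef]
    split_ifs with hp2
    · rw [pow_one]; exact (hk2 k hk).2 hp2
    · exact (hk2 k hk).1
  have hpp : p.Prime := Fact.out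
  have hcr : c.Coprime r := by
    rw [hcdef]
    split_ifs with hp2
    · exact Nat.coprime_one_left r
    · exact (Nat.coprime_primes Nat.prime_two hr).2 (Ne.symm hr2)
  have hcp : c.Coprime p := by
    rw [hcdef]
    split_ifs with hp2
    · exact Nat.coprime_one_left p
    · exact (Nat.coprime_primes Nat.prime_two hpp).2 (Ne.symm hp2)
  refine isoAt_of_cover (c := c) (z := z') hπ hr hpp hkc hcc hcr hcp hz'o τ ?_ ?_ ?_ ?_
  · rintro x ⟨i, hi⟩ hx
    have hxz := hmem.1 x.2
    have hx' : (x : E (prodForm Q Q')) ^ (r ^ i) = 1 := congrArg Subtype.val hi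
    have h1 : aa (x : E (prodForm Q Q')) = 1 := congrArg Units.val hx
    exact Subtype.ext (hone _ hxz (haa1 _ hxz h1) (hss _ hxz ⟨i, hx'⟩))
  · rintro x y ⟨i, hi⟩
    have hxz := hmem.1 x.2
    have hyz := hmem.1 y.2
    have hx' : (x : E (prodForm Q Q')) ^ (r ^ i) = 1 := congrArg Subtype.val hi
    have h1 := hss _ hxz ⟨i, hx'⟩
    have h2 := hT.comm (htO _ hxz) (htO _ hyz) (htz _ hxz) (htz _ hyz)
    apply Subtype.ext
    apply Subtype.ext
    show ((x : E (prodForm Q Q')) : (U × P) ≃ₗ[F] (U × P)) * ((y : E (prodForm Q Q')) : (U × P) ≃ₗ[F] (U × P)) =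
      ((y : E (prodForm Q Q')) : (U × P) ≃ₗ[F] (U × P)) * ((x : E (prodForm Q Q')) : (U × P) ≃ₗ[F] (U × P))
    rw [hts _ hxz, hts _ hyz, h1]
    have h3 : ∀ (t t' : U ≃ₗ[F] U) (s s' : P ≃ₗ[F] P), t.prodCongr s * t'.prodCongr s' =
        (t * t').prodCongr (s * s') := fun _ _ _ _ => rfl
    rw [h3, h3, h2.eq, one_mul, mul_one]
  · intro x hx hxp
    obtain ⟨h1, h2⟩ := hpw x hx p hxp
    have h3 : aa x = 1 := by
      have h4 : aa x ^ p = 1 := by
        have hpow : ∀ k : ℕ, (tt x ^ k) (j 1) = j (aa x ^ k) := by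
          intro k
          induction k with
          | zero => simp
          | succ k ih =>
            rw [pow_succ', LinearEquiv.mul_apply, ih, haa x hx, pow_succ']
        have h5 := hpow p
        rw [h1] at h5
        exact (hT.inj h5).symm
      have h5 : (aa x - 1) ^ p = 0 := by rw [sub_pow_char, one_pow, h4, sub_self]
      exact sub_eq_zero.1 (pow_eq_zero_iff hpp.ne_zero |>.1 h5)
    have h4 := haa1 x hx h3
    refine hone x hx h4 ?_
    exact eq_one_of_one (F := F) (p := p) hP h2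
  · rintro ⟨h1, h2⟩
    refine hnot ⟨h1, ?_⟩
    -- the eigenvalues
    have hjj : Function.Injective ((LinearMap.inl F U P).comp j) := fun a b hab => hT.inj (congrArg Prod.fst hab)
    refine le_of_roots (L := L) (zz P z).toLinearMap hT.ord ?_
    intro m hm0 hm
    have hrm : ¬ r ∣ m := fun h => absurd (Nat.le_of_dvd hm0 h) (not_le.2 hm)
    obtain ⟨g, hg⟩ := isConj_iff.1 (h2 m hrm)
    have hg' : (g : (U × P) ≃ₗ[F] (U × P)) * zz P z * (g : (U × P) ≃ₗ[F] (U × P))⁻¹ = zz P z ^ m :=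
      congrArg Subtype.val hg
    have h3 : (zz P z ^ m).toLinearMap.charpoly = (zz P z).toLinearMap.charpoly := by
      rw [← hg']
      exact LinearEquiv.charpoly_conj (g : (U × P) ≃ₗ[F] (U × P)) (zz P z).toLinearMap
    rw [← h3]
    refine root_charpoly _ (lam ^ m) ((LinearMap.inl F U P).comp j) hjj ?_
    have hpow : ∀ (k : ℕ) (l : L), (zz P z ^ k) (j l, 0) = (j (lam ^ k * l), 0) := by
      intro k
      induction k with
      | zero => intro l; simp
      | succ k ih =>
        intro l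
        have h4 : zz P z (j l, 0) = (j (lam * l), 0) := Prod.ext (hT.eig l) rfl
        rw [pow_succ, LinearEquiv.mul_apply, h4, ih, pow_succ, mul_assoc]
    exact fun l => hpow m l

end main

section geo

/-- the projection, odd dimension -/
theorem exists_piO {F : Type} [Field F] [Fintype F] (hodd : Odd (Fintype.card F)) {U : Type} [AddCommGroup U] [Module F U]
    [Finite U] {Q : QuadraticForm F U} {n : ℕ} (hn : 3 ≤ n) {ε : ℤ} (hQ : Sg Q n ε) {S : Type*} [Group S]
    (i : POmega F (quadFormOdd n F) ≃* S) :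
    Nondeg (prodForm Q (H160.QDisc.oneF (1 : F))) ∧ Good (prodForm Q (H160.QDisc.oneF (1 : F))) ∧
    ∃ π : E (prodForm Q (H160.QDisc.oneF (1 : F))) →* S, Function.Surjective π ∧
      ∀ z : E (prodForm Q (H160.QDisc.oneF (1 : F))), z ∈ π.ker ↔ ∃ a : F, ∀ v, (z : (U × F) ≃ₗ[F] (U × F)) v = a • v := by
  have h2 : (2 : F) ≠ 0 := by
    intro h
    have h3 : CharP F 2 := CharTwo.of_one_ne_zero_of_two_eq_zero one_ne_zero h
    have h4 := FiniteField.even_card_of_char_two (ringChar.eq_iff.2 h3)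
    exact (Nat.not_even_iff_odd.2 hodd) (Nat.even_iff.2 h4)
  rw [← coe_oddForm] at i
  have hfin : FiniteDimensional F U := Module.Finite.of_finite
  have hd : finrank F U = 2 * n := hQ.dim
  have hW : finrank F (U × F) = 2 * n + 1 := by
    rw [finrank_prod, finrank_self, hd]
  have heq : prodForm Q (H160.QDisc.oneF (1 : F)) = Q.prod (H160.QDisc.oneF (1 : F)) := by
    ext v
    rfl
  have hnd : Nondeg (prodForm Q (H160.QDisc.oneF (1 : F))) := by
    rw [heq]
    exact H160.QSpin.nondeg_prod hQ.nondeg (H160.QDisc.nondeg_oneF h2 one_ne_zero)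
  have hG : Good (prodForm Q (H160.QDisc.oneF (1 : F))) := good_of_finite hnd (by omega)
  have hRn : Nondeg (oddForm n F) := nondeg_oddForm n F h2
  have hRd : finrank F (Unit ⊕ (Fin n ⊕ Fin n) → F) = 2 * n + 1 := by
    rw [finrank_fintype_fun_eq_card]
    simp only [Fintype.card_sum, Fintype.card_fin, Fintype.card_unit]
    omega
  obtain ⟨d, e, hd0, he⟩ := Cfsg.Agent.H377.exists_similar_odd (m := n) hW _ hnd
  exact ⟨hnd, hG, exists_pi (R := oddForm n F) (c := d) (good_of_finite hRn (by omega))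
    (good_of_finite (nondeg_smul hRn hd0) (by omega)) e hd0 he hG i⟩

/-- **Primes dividing `q ^ n + 1`.** -/
theorem isoMO {F : Type} [Field F] [Fintype F] {p : ℕ} [Fact p.Prime] [CharP F p] (hoddF : Odd (Fintype.card F))
    {k : ℕ} (hk : 3 ≤ k) {S : Type*} [Group S] (i : POmega F (quadFormOdd k F) ≃* S) {r : ℕ} (hr : r.Prime)
    (hr1 : r ∣ Fintype.card F ^ k + 1) (hr2 : ∀ i : ℕ, 0 < i → i < 2 * k → ¬ r ∣ Fintype.card F ^ i - 1) :
    IsoAt p r S := by
  obtain ⟨L, _, _, _, Q, u, hQ, hu, huQ⟩ := exists_torusM F (k := k) (by omega)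
  obtain ⟨hnd, hG, π, hπ, hker⟩ := exists_piO hoddF hk hQ i
  have hdL : finrank F L = 2 * k := hQ.dim
  have hcF : Nat.card F = Fintype.card F := Nat.card_eq_fintype_card
  have hF : 2 ≤ Fintype.card F := Fintype.one_lt_card
  have hF3 : 3 ≤ Fintype.card F := by
    rcases hoddF with ⟨m, hm⟩
    omega
  have hu0 : u ≠ 0 := by
    rintro rfl
    have h1 := pow_orderOf_eq_one (0 : L)
    rw [hu, pow_succ, mul_zero] at h1
    exact zero_ne_one h1
  obtain ⟨s, hs⟩ := hr1
  have hs0 : s ≠ 0 := by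
    rintro rfl
    omega
  set lam : L := u ^ s with hlam
  have hlam0 : lam ≠ 0 := pow_ne_zero _ hu0
  have hlamo : orderOf lam = r := by
    rw [hlam, orderOf_pow_of_dvd hs0 (by rw [hu, hs]; exact Dvd.intro_left r rfl), hu, hs,
      Nat.mul_div_cancel _ (Nat.pos_of_ne_zero hs0)]
  have hpowQ : ∀ (m : ℕ) (v : L), Q (u ^ m * v) = Q v := by
    intro m
    induction m with
    | zero => intro v; rw [pow_zero, one_mul]
    | succ m ih => intro v; rw [pow_succ', mul_assoc, huQ, ih]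
  have hT := torU_minus hlam0 hlamo (by
    intro i hi hi2
    rw [hcF]
    rw [hdL] at hi2
    exact hr2 i hi hi2) (hpowQ s)
  have hr2' : r ≠ 2 := by
    rintro rfl
    have h1 := hr2 1 one_pos (by omega)
    rw [pow_one] at h1
    exact h1 (Nat.Odd.sub_odd hoddF odd_one).two_dvd
  have hodd : Odd r := hr.odd_of_ne_two hr2'
  refine iso_orth1 (p := p) hr hT hnd (finrank_self F) ?_ ?_ ?_
    (mem_of_odd hG hT.memO hodd hT.pow_eq) π hπ hker ?_
  · rw [hcF]
    intro h1
    have h2 : r ∣ 1 := (Nat.dvd_add_right (Dvd.dvd.pow h1 (by omega))).1 ⟨s, hs⟩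
    exact hr.one_lt.ne' (Nat.dvd_one.1 h2)
  · rw [hcF]
    have h1 := hr2 1 one_pos (by omega)
    rwa [pow_one] at h1
  · rw [hcF]
    exact hr2 2 two_pos (by omega)
  · rintro ⟨h1, h2⟩
    have hmO : mulL F u hu0 ∈ O Q := huQ
    have h3 := h1 ⟨zz F (mulL F u hu0 ^ 2), sq_mem hG hmO⟩ (by
      apply Subtype.ext
      show zz F (mulL F lam hlam0) * zz F (mulL F u hu0 ^ 2) = zz F (mulL F u hu0 ^ 2) * zz F (mulL F lam hlam0)
      refine LinearEquiv.ext fun v => Prod.ext ?_ rfl
      show lam * (u * (u * v.1)) = u * (u * (lam * v.1))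
      ring)
    have hnt' : Nontrivial (L × F) := inferInstance
    obtain ⟨a, ha2, ha, haP⟩ := scal hker hnd hnt' _ h3
    have hpw : ∀ (m : ℕ) (v : L), (mulL F u hu0 ^ m) v = u ^ m * v := by
      intro m
      induction m with
      | zero => intro v; rw [pow_zero, pow_zero, one_mul]; rfl
      | succ m ih =>
        intro v
        rw [pow_succ', LinearEquiv.mul_apply, ih, mulL_apply, pow_succ', mul_assoc]
    have h4 : u ^ (2 * r) = a • (1 : L) := by
      have h5 := ha 1
      rw [← pow_mul, hpw, mul_one] at h5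
      exact h5
    rw [haP inferInstance, one_smul] at h4
    have h5 : Fintype.card F ^ k + 1 ∣ 2 * r := by
      rw [← hu]
      exact orderOf_dvd_of_pow_eq_one h4
    have h6 := Nat.le_of_dvd (Nat.mul_pos two_pos hr.pos) h5
    have h7 : 3 ^ k ≤ Fintype.card F ^ k := Nat.pow_le_pow_left hF3 k
    have h8 := num2 hk
    rw [finrank_prod, hdL, finrank_self] at h2
    omega

/-- **Primes dividing `q ^ n - 1`, `n` odd.** -/
theorem isoPO {F : Type} [Field F] [Fintype F] {p : ℕ} [Fact p.Prime] [CharP F p] (hoddF : Odd (Fintype.card F))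
    {k : ℕ} (hk : 3 ≤ k) (hodd : Odd k) {S : Type*} [Group S] (i : POmega F (quadFormOdd k F) ≃* S) {r : ℕ}
    (hr : r.Prime) (hr1 : r ∣ Fintype.card F ^ k - 1)
    (hr2 : ∀ i : ℕ, 0 < i → i < k → ¬ r ∣ Fintype.card F ^ i - 1) : IsoAt p r S := by
  obtain ⟨K, _, _, b, hKf, y, hK, hy⟩ := Singer.exists_ext F k (by omega)
  have hrk : Module.finrank F K = k := by rw [Module.finrank_eq_card_basis b, Fintype.card_fin]
  have hQ := sg_tq F K hrk
  obtain ⟨hnd, hG, π, hπ, hker⟩ := exists_piO hoddF hk hQ i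
  have hcF : Nat.card F = Fintype.card F := Nat.card_eq_fintype_card
  have hF : 2 ≤ Fintype.card F := Fintype.one_lt_card
  have hF3 : 3 ≤ Fintype.card F := by
    rcases hoddF with ⟨m, hm⟩
    omega
  have hFk : 3 ^ k ≤ Fintype.card F ^ k := Nat.pow_le_pow_left hF3 k
  have h2k := num2 hk
  obtain ⟨s, hs⟩ := hr1
  have hs0 : s ≠ 0 := by
    rintro rfl
    omega
  set lam : Kˣ := y ^ s with hlam
  have hlamo : orderOf (lam : K) = r := by
    rw [orderOf_units, hlam, orderOf_pow_of_dvd hs0 (by rw [hy, hs]; exact Dvd.intro_left r rfl), hy, hs,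
      Nat.mul_div_cancel _ (Nat.pos_of_ne_zero hs0)]
  have hr2' : r ≠ 2 := by
    rintro rfl
    have h1 := hr2 1 one_pos (by omega)
    rw [pow_one] at h1
    exact h1 (Nat.Odd.sub_odd hoddF odd_one).two_dvd
  have hT := torU_plus (F := F) (r := r) (lam := lam) (by omega) (tor_of_odd hr hr2' lam.ne_zero hlamo (by rwa [hrk]) (by
    intro i hi hi2
    rw [hcF]
    rw [hrk] at hi2
    exact hr2 i hi hi2)) hlamo
  have hr2'' : Odd r := hr.odd_of_ne_two hr2'
  refine iso_orth1 (p := p) hr hT hnd (finrank_self F) ?_ ?_ ?_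
    (mem_of_odd hG hT.memO hr2'' hT.pow_eq) π hπ hker ?_
  · rw [hcF]
    intro h1
    have h3 : Fintype.card F ^ k = r * s + 1 := by omega
    have h2 : r ∣ 1 := (Nat.dvd_add_right (Dvd.intro s rfl)).1 (h3 ▸ Dvd.dvd.pow h1 (by omega))
    exact hr.one_lt.ne' (Nat.dvd_one.1 h2)
  · rw [hcF]
    have h1 := hr2 1 one_pos (by omega)
    rwa [pow_one] at h1
  · rw [hcF]
    exact hr2 2 two_pos (by omega)
  · rintro ⟨h1, h2⟩
    have h3 := h1 ⟨zz F (dw y ^ 2), sq_mem hG (dw_mem_O y)⟩ (by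
      apply Subtype.ext
      show zz F (dw lam) * zz F (dw y ^ 2) = zz F (dw y ^ 2) * zz F (dw lam)
      refine LinearEquiv.ext fun v => Prod.ext ?_ rfl
      show (dw lam : (K × K) ≃ₗ[F] (K × K)) ((dw y ^ 2 : (K × K) ≃ₗ[F] (K × K)) v.1) =
        (dw y ^ 2 : (K × K) ≃ₗ[F] (K × K)) ((dw lam : (K × K) ≃ₗ[F] (K × K)) v.1)
      rw [dw_pow, dw_apply, dw_apply, dw_apply, dw_apply]
      refine Prod.ext ?_ ?_
      · show (lam : K) * (((y ^ 2 : Kˣ) : K) * v.1.1) = ((y ^ 2 : Kˣ) : K) * ((lam : K) * v.1.1)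
        ring
      · show ((lam⁻¹ : Kˣ) : K) * ((((y ^ 2)⁻¹ : Kˣ) : K) * v.1.2) = (((y ^ 2)⁻¹ : Kˣ) : K) * (((lam⁻¹ : Kˣ) : K) * v.1.2)
        ring)
    have hnt' : Nontrivial ((K × K) × F) := inferInstance
    obtain ⟨a, ha2, ha, haP⟩ := scal hker hnd hnt' _ h3
    have h4 : ((y ^ (2 * r) : Kˣ) : K) = a • (1 : K) := by
      have h5 := ha (1, 0)
      rw [← pow_mul, dw_pow, dw_apply] at h5
      have h6 := congrArg Prod.fst h5
      rw [mul_one] at h6
      exact h6
    rw [haP inferInstance, one_smul] at h4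
    have h5 : Fintype.card F ^ k - 1 ∣ 2 * r := by
      rw [← hy]
      exact orderOf_dvd_of_pow_eq_one (Units.ext h4)
    have h6 := Nat.le_of_dvd (Nat.mul_pos two_pos hr.pos) h5
    rw [finrank_prod, finrank_self, hQ.dim] at h2
    omega

end geo

end Cfsg.Agent.H128.OZ
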