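import Cfsg.Agent.H128.OZ.PlusEven
import Cfsg.Agent.H5.OZ.TwelveRow
import Cfsg.Agent.H530.OZ.RowF
import Cfsg.Agent.H730.OZ.Known

/-!
# S4842: the family `POmega⁺` (helper128)
-/

set_option autoImplicit false

namespace Cfsg.Agent.H128.OZ

open Cfsg Cfsg.Agent.H730.OZ Cfsg.Agent.H530.OZ

universe u

/-- The missing pieces of the family `POmega⁺`. -/
structure PlusHyp : Prop where
  /-- `POmega⁺₈ (q)`, `q ≥ 3` -/
  eight : ∀ {S : Type u} [Group S] [Finite S], IsSimpleGroup S → ∀ {F : Type} [Field F] [Fintype F],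
    3 ≤ Fintype.card F → (S ≃* POmega F (quadFormPlus 4 F)) → Cfsg.Agent.H730.OZ.Row S
  /-- `POmega⁺₈ (2)` -/
  eight_two : ∀ {S : Type u} [Group S] [Finite S], IsSimpleGroup S → ∀ {F : Type} [Field F] [Fintype F],
    Fintype.card F = 2 → (S ≃* POmega F (quadFormPlus 4 F)) → Cfsg.Agent.H730.OZ.Row S
  /-- `POmega⁺₁₂ (2)`, the prime `17` -/
  seventeen : ∀ {S : Type u} [Group S] [Finite S], IsSimpleGroup S → ∀ {F : Type} [Field F] [Fintype F],
    Fintype.card F = 2 → (S ≃* POmega F (quadFormPlus 6 F)) → Cong 2 17 4 S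
  /-- the primes of order `2 (n - 2)` -/
  kc : ∀ {S : Type u} [Group S] [Finite S], IsSimpleGroup S → ∀ {F : Type} [Field F] [Fintype F] {n : ℕ},
    6 ≤ n → Even n → ¬ (n = 6 ∧ Fintype.card F = 2) → (S ≃* POmega F (quadFormPlus n F)) →
    ∀ (p f r : ℕ), p.Prime → Fintype.card F = p ^ f → Prim p (2 * (n - 2) * f) r → Cong p r (4 * f) S
  /-- the primes of order `n` -/
  loc : ∀ {S : Type u} [Group S] [Finite S], IsSimpleGroup S → ∀ {F : Type} [Field F] [Fintype F] {n : ℕ},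
    6 ≤ n → Even n → ¬ (n = 6 ∧ Fintype.card F = 2) → (S ≃* POmega F (quadFormPlus n F)) →
    ∀ (p f r : ℕ), p.Prime → Fintype.card F = p ^ f → Prim p (n * f) r → Cong p r 0 S

/-- **The family `POmega⁺`** -/
theorem row_isPOmegaPlus_of (H : PlusHyp.{u}) {S : Type u} [Group S] [Finite S] (hs : IsSimpleGroup S)
    (h : IsPOmegaPlus S) : Cfsg.Agent.H730.OZ.Row S := by
  obtain ⟨F, _, _, n, hn, ⟨e⟩⟩ := h
  rcases Nat.even_or_odd n with he | ho
  · rcases Nat.lt_or_ge n 6 with h6 | h6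
    · obtain rfl : n = 4 := by
        rcases he with ⟨k, rfl⟩
        omega
      have h2 : 2 ≤ Fintype.card F := Fintype.one_lt_card
      rcases h2.eq_or_lt with h2 | h2
      · exact H.eight_two hs h2.symm e
      · exact H.eight hs h2 e
    · by_cases h62 : n = 6 ∧ Fintype.card F = 2
      · obtain ⟨rfl, h2⟩ := h62
        exact H5.OZ.row_plus12_two hs h2 e (H.seventeen hs h2 e)
      · exact row_plus_even_of hs h6 he h62 e (H.kc hs h6 he h62 e) (H.loc hs h6 he h62 e)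
  · exact row_plus_odd hs hn ho e

end Cfsg.Agent.H128.OZ
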