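import Cfsg.Agent.H128.OZ.Plus
import Cfsg.Agent.H556.OZ.LocPlus

/-!
# S4842: the family `POmega⁺`, with helper556's `loc_plus` plugged in (helper128)
-/

set_option autoImplicit false

namespace Cfsg.Agent.H128.OZ

open Cfsg Cfsg.Agent.H730.OZ Cfsg.Agent.H530.OZ

universe u

/-- The missing pieces of the family `POmega⁺`. -/
structure PlusRest : Prop where
  /-- `POmega⁺₈ (q)`, `q ≥ 3` -/
  eight : ∀ {S : Type u} [Group S] [Finite S], IsSimpleGroup S → ∀ {F : Type} [Field F] [Fintype F],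
    3 ≤ Fintype.card F → (S ≃* POmega F (quadFormPlus 4 F)) → Cfsg.Agent.H730.OZ.Row S
  /-- `POmega⁺₈ (2)` -/
  eight_two : ∀ {S : Type u} [Group S] [Finite S], IsSimpleGroup S → ∀ {F : Type} [Field F] [Fintype F],
    Fintype.card F = 2 → (S ≃* POmega F (quadFormPlus 4 F)) → Cfsg.Agent.H730.OZ.Row S
  /-- `POmega⁺₁₂ (2)`, the prime `17` -/
  seventeen : ∀ {S : Type u} [Group S] [Finite S], IsSimpleGroup S → ∀ {F : Type} [Field F] [Fintype F],
    Fintype.card F = 2 → (S ≃* POmega F (quadFormPlus 6 F)) → Cong 2 17 4 S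
  /-- the primes of order `2 (n - 2)` -/
  kc : ∀ {S : Type u} [Group S] [Finite S], IsSimpleGroup S → ∀ {F : Type} [Field F] [Fintype F] {n : ℕ},
    6 ≤ n → Even n → ¬ (n = 6 ∧ Fintype.card F = 2) → (S ≃* POmega F (quadFormPlus n F)) →
    ∀ (p f r : ℕ), p.Prime → Fintype.card F = p ^ f → Prim p (2 * (n - 2) * f) r → Cong p r (4 * f) S

theorem PlusRest.hyp (H : PlusRest.{u}) : PlusHyp.{u} where
  eight := H.eight
  eight_two := H.eight_two
  seventeen := H.seventeen
  kc := H.kc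
  loc := fun _ _ _ _ _ hn he _ e => H556.OZ.loc_plus hn he e

/-- **The family `POmega⁺`** -/
theorem row_isPOmegaPlus_of' (H : PlusRest.{u}) {S : Type u} [Group S] [Finite S] (hs : IsSimpleGroup S)
    (h : IsPOmegaPlus S) : Cfsg.Agent.H730.OZ.Row S := row_isPOmegaPlus_of H.hyp hs h

end Cfsg.Agent.H128.OZ
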